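import Cfsg.Agent.H891.DG.Defs
import Cfsg.Agent.H55.OutGen
import Cfsg.Agent.H679.OutTwo

/-!
# S4180: `Cos2` for groups with `|Out T| = 2` (helper831)

* `cos2_congr`;
* `cos2_of_mul` : `Out T` has order 2, `T` is 2-generated and `Inn T ≤ ⟨α, conj t⟩` for an outer `α`;
* `cos2_of_swap` : the case `T = ⟨t, α t⟩`.
-/

set_option autoImplicit false

namespace Cfsg.Agent.H831.DG.CosTwo

open Cfsg.Agent.H440.TwoGen Cfsg.Agent.H891.Gen Cfsg.Agent.H891.DG Subgroup

universe u v

theorem range_congr {T : Type u} {T' : Type v} [Group T] [Group T'] (e : T ≃* T') {α : MulAut T}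
    (h : α ∈ (MulAut.conj : T →* MulAut T).range) :
    MulAut.congr e α ∈ (MulAut.conj : T' →* MulAut T').range := by
  obtain ⟨g, rfl⟩ := h
  refine ⟨e g, ?_⟩
  ext x
  change e g * x * (e g)⁻¹ = e (g * e.symm x * g⁻¹)
  simp

theorem range_congr_symm {T : Type u} {T' : Type v} [Group T] [Group T'] (e : T ≃* T') {α : MulAut T'}
    (h : α ∈ (MulAut.conj : T' →* MulAut T').range) :
    (MulAut.congr e).symm α ∈ (MulAut.conj : T →* MulAut T).range := range_congr e.symm h

theorem cos2_congr {T : Type u} {T' : Type v} [Group T] [Group T'] (e : T ≃* T') (h : Cos2 T) : Cos2 T' := by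
  intro x y
  obtain ⟨s, hs, t, ht, h1⟩ := h ((MulAut.congr e).symm x) ((MulAut.congr e).symm y)
  refine ⟨MulAut.congr e s, range_congr e hs, MulAut.congr e t, range_congr e ht, ?_⟩
  intro z hz
  have h2 := h1 (range_congr_symm e hz)
  have h3 := mem_map_of_mem (MulAut.congr e : MulAut T ≃* MulAut T').toMonoidHom h2
  rw [MonoidHom.map_closure, Set.image_pair] at h3
  have h4 : (MulAut.congr e : MulAut T ≃* MulAut T').toMonoidHom ((MulAut.congr e).symm z) = z :=
    (MulAut.congr e).apply_symm_apply z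
  have h5 : (MulAut.congr e : MulAut T ≃* MulAut T').toMonoidHom ((MulAut.congr e).symm x * s) =
      x * MulAut.congr e s := by
    rw [map_mul]
    exact congrArg (· * _) ((MulAut.congr e).apply_symm_apply x)
  have h6 : (MulAut.congr e : MulAut T ≃* MulAut T').toMonoidHom ((MulAut.congr e).symm y * t) =
      y * MulAut.congr e t := by
    rw [map_mul]
    exact congrArg (· * _) ((MulAut.congr e).apply_symm_apply y)
  rwa [h4, h5, h6] at h3

variable {T : Type u} [Group T]

theorem conj_mem_range (g : T) : MulAut.conj g ∈ (MulAut.conj : T →* MulAut T).range := ⟨g, rfl⟩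

/-- `|Out T| = 2`, `T` is 2-generated and `Inn T ≤ ⟨α, conj t⟩`, `α` outer. -/
theorem cos2_of_mul (hO : Nat.card (Cfsg.Out T) = 2) (h2 : TwoGen T) {α : MulAut T}
    (hα : ∀ g : T, α ≠ MulAut.conj g) (t : T)
    (h : (MulAut.conj : T →* MulAut T).range ≤ closure ({α, MulAut.conj t} : Set (MulAut T))) : Cos2 T := by
  have hidx : (MulAut.conj : T →* MulAut T).range.index = 2 := hO
  have hαr : α ∉ (MulAut.conj : T →* MulAut T).range := by
    rintro ⟨g, hg⟩
    exact hα g hg.symm
  have hN := Cfsg.Agent.H679.conj_range_normal' T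
  have key : ∀ x : MulAut T, x ∉ (MulAut.conj : T →* MulAut T).range →
      ∃ s ∈ (MulAut.conj : T →* MulAut T).range, x * s = α := by
    intro x hx
    refine ⟨x⁻¹ * α, ?_, by group⟩
    rw [Subgroup.mul_mem_iff_of_index_two hidx, inv_mem_iff]
    exact ⟨fun h => absurd h hx, fun h => absurd h hαr⟩
  have key2 : ∀ x : MulAut T, x ∈ (MulAut.conj : T →* MulAut T).range → ∀ g : T,
      ∃ s ∈ (MulAut.conj : T →* MulAut T).range, x * s = MulAut.conj g := by
    intro x hx g
    exact ⟨x⁻¹ * MulAut.conj g, mul_mem (inv_mem hx) (conj_mem_range g), by group⟩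
  intro x y
  by_cases hx : x ∈ (MulAut.conj : T →* MulAut T).range
  · by_cases hy : y ∈ (MulAut.conj : T →* MulAut T).range
    · obtain ⟨a, b, hab⟩ := h2
      obtain ⟨s, hs, h3⟩ := key2 x hx a
      obtain ⟨s', hs', h4⟩ := key2 y hy b
      refine ⟨s, hs, s', hs', ?_⟩
      rw [h3, h4, MonoidHom.range_eq_map, ← hab, MonoidHom.map_closure, Set.image_pair]
    · obtain ⟨s, hs, h3⟩ := key2 x hx t
      obtain ⟨s', hs', h4⟩ := key y hy
      refine ⟨s, hs, s', hs', ?_⟩
      rw [h3, h4, Set.pair_comm]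
      exact h
  · by_cases hy : y ∈ (MulAut.conj : T →* MulAut T).range
    · obtain ⟨s, hs, h3⟩ := key x hx
      obtain ⟨s', hs', h4⟩ := key2 y hy t
      refine ⟨s, hs, s', hs', ?_⟩
      rw [h3, h4]
      exact h
    · obtain ⟨s, hs, h3⟩ := key x hx
      obtain ⟨s', hs', h4⟩ := key y hy
      refine ⟨s, hs, s' * MulAut.conj t, mul_mem hs' (conj_mem_range t), ?_⟩
      rw [h3, ← mul_assoc, h4]
      refine h.trans ?_
      rw [closure_le]
      have h5 : α ∈ closure ({α, α * MulAut.conj t} : Set (MulAut T)) := subset_closure (by simp)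
      have h6 : α * MulAut.conj t ∈ closure ({α, α * MulAut.conj t} : Set (MulAut T)) := subset_closure (by simp)
      rintro z (rfl | hz)
      · exact h5
      · rw [Set.mem_singleton_iff] at hz
        subst hz
        have h7 := mul_mem (inv_mem h5) h6
        rwa [inv_mul_cancel_left] at h7

/-- The subgroup of `T` of the elements whose inner automorphism is in `⟨α, conj t⟩`. -/
def cor (α : MulAut T) (t : T) : Subgroup T :=
  (closure ({α, MulAut.conj t} : Set (MulAut T))).comap (MulAut.conj : T →* MulAut T)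

theorem mem_cor {α : MulAut T} {t g : T} : g ∈ cor α t ↔ MulAut.conj g ∈ closure ({α, MulAut.conj t} : Set (MulAut T)) :=
  Iff.rfl

theorem self_mem_cor (α : MulAut T) (t : T) : t ∈ cor α t := mem_cor.2 (subset_closure (by simp))

/-- automorphisms in `⟨α, conj t⟩` preserve `cor α t` -/
theorem apply_mem_cor {α β : MulAut T} {t g : T} (hβ : β ∈ closure ({α, MulAut.conj t} : Set (MulAut T)))
    (hg : g ∈ cor α t) : β g ∈ cor α t := by
  rw [mem_cor] at hg ⊢
  have h : MulAut.conj (β g) = β * MulAut.conj g * β⁻¹ := by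
    ext x
    change β g * x * (β g)⁻¹ = β (g * β⁻¹ x * g⁻¹)
    rw [map_mul, map_mul, map_inv]
    change _ = β g * (β * β⁻¹) x * (β g)⁻¹
    rw [mul_inv_cancel]
    rfl
  rw [h]
  exact mul_mem (mul_mem hβ hg) (inv_mem hβ)

theorem apply_mem_cor' {α : MulAut T} {t g : T} (hg : g ∈ cor α t) : α g ∈ cor α t :=
  apply_mem_cor (subset_closure (by simp)) hg

theorem cos2_of_cor (hO : Nat.card (Cfsg.Out T) = 2) (h2 : TwoGen T) {α : MulAut T}
    (hα : ∀ g : T, α ≠ MulAut.conj g) (t : T) (h : cor α t = ⊤) : Cos2 T := by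
  refine cos2_of_mul hO h2 hα t ?_
  rintro _ ⟨g, rfl⟩
  have : g ∈ cor α t := by rw [h]; exact mem_top _
  exact this

/-- The case `T = ⟨t, α t⟩`. -/
theorem cos2_of_swap (hO : Nat.card (Cfsg.Out T) = 2) {α : MulAut T} (hα : ∀ g : T, α ≠ MulAut.conj g) (t : T)
    (h : closure ({t, α t} : Set T) = ⊤) : Cos2 T := by
  refine cos2_of_cor hO ⟨t, α t, h⟩ hα t ?_
  rw [eq_top_iff, ← h, closure_le]
  rintro z (rfl | hz)
  · exact self_mem_cor α _
  · rw [Set.mem_singleton_iff] at hz
    subst hz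
    exact apply_mem_cor' (self_mem_cor α t)

end Cfsg.Agent.H831.DG.CosTwo
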