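import Cfsg.Agent.H831.DG.CosTwo

/-!
# S4180: `Cos2` for a subgroup `R` normalised by an involution `z` inducing the outer automorphism (helper831)
-/

set_option autoImplicit false

namespace Cfsg.Agent.H831.DG.PermAut

open Cfsg.Agent.H440.TwoGen Cfsg.Agent.H891.Gen Cfsg.Agent.H891.DG Subgroup Cfsg.Agent.H831.DG.CosTwo

universe u

variable {P : Type u} [Group P]

/-- conjugation by the involution `z` on `R` -/
def conjAut (R : Subgroup P) (z : P) (hzz : z * z = 1) (hz : ∀ x ∈ R, z * x * z⁻¹ ∈ R) : MulAut R where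
  toFun x := ⟨z * x * z⁻¹, hz x x.2⟩
  invFun x := ⟨z * x * z⁻¹, hz x x.2⟩
  left_inv x := Subtype.ext (by
    have h1 : z⁻¹ = z := inv_eq_of_mul_eq_one_left hzz
    show z * (z * (x : P) * z⁻¹) * z⁻¹ = x
    rw [h1]
    calc z * (z * (x : P) * z) * z = (z * z) * x * (z * z) := by group
      _ = x := by rw [hzz, one_mul, mul_one])
  right_inv x := Subtype.ext (by
    have h1 : z⁻¹ = z := inv_eq_of_mul_eq_one_left hzz
    show z * (z * (x : P) * z⁻¹) * z⁻¹ = x
    rw [h1]
    calc z * (z * (x : P) * z) * z = (z * z) * x * (z * z) := by group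
      _ = x := by rw [hzz, one_mul, mul_one])
  map_mul' x y := Subtype.ext (by
    show z * ((x : P) * y) * z⁻¹ = z * x * z⁻¹ * (z * y * z⁻¹)
    group)

theorem cos2_of_conj (R : Subgroup P) (hO : Nat.card (Cfsg.Out R) = 2) (z : P) (hzz : z * z = 1)
    (hz : ∀ x ∈ R, z * x * z⁻¹ ∈ R) (hout : ∀ r ∈ R, ¬ ∀ x ∈ R, z * x * z⁻¹ = r * x * r⁻¹) {t : P} (ht : t ∈ R)
    (hgen : R ≤ closure ({t, z * t * z⁻¹} : Set P)) : Cos2 R := by
  refine cos2_of_swap hO (α := conjAut R z hzz hz) ?_ ⟨t, ht⟩ ?_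
  · intro g hg
    refine hout g g.2 fun x hx => ?_
    have h1 := DFunLike.congr_fun hg ⟨x, hx⟩
    exact congrArg Subtype.val h1
  · rw [eq_top_iff]
    rintro x -
    have h1 : (closure ({⟨t, ht⟩, conjAut R z hzz hz ⟨t, ht⟩} : Set R)).map R.subtype =
        closure ({t, z * t * z⁻¹} : Set P) := by
      rw [MonoidHom.map_closure, Set.image_pair]
      rfl
    have h2 : (x : P) ∈ closure ({t, z * t * z⁻¹} : Set P) := hgen x.2
    rw [← h1] at h2
    obtain ⟨y, hy, h3⟩ := h2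
    rwa [← Subtype.ext h3]

/-- normality on generators suffices -/
theorem conj_mem_of_gens {R : Subgroup P} {S : Set P} (hR : R = closure S) {z : P}
    (h : ∀ x ∈ S, z * x * z⁻¹ ∈ R) : ∀ x ∈ R, z * x * z⁻¹ ∈ R := by
  have h1 : R ≤ R.comap (MulAut.conj z).toMonoidHom := by
    conv_lhs => rw [hR]
    rw [closure_le]
    intro x hx
    exact h x hx
  exact fun x hx => h1 hx

end Cfsg.Agent.H831.DG.PermAut
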